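import Mathlib
import Cfsg.Prelude.Def_OddOrderLocal
import Cfsg.Prelude.Def_LieExceptional
import Cfsg.Agent.Lib.Helper74.Fitting

/-!
# Groups all of whose element centralizers are TI-subgroups: basic facts
-/

set_option autoImplicit false

namespace Cfsg.Agent.Lib.Helper80.CTI

open Subgroup

/-- every element centralizer is a TI-subgroup -/
def IsCTI (G : Type*) [Group G] : Prop :=
  ∀ x : G, Cfsg.IsTISubset ((centralizer ({x} : Set G) : Subgroup G) : Set G)

variable {G : Type*} [Group G]

theorem IsCTI.mem_normalizer (h : IsCTI G) {x c g : G} (hc : c ∈ centralizer ({x} : Set G))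
    (hc1 : c ≠ 1) (hg : g * c * g⁻¹ ∈ centralizer ({x} : Set G)) :
    g ∈ normalizer ((centralizer ({x} : Set G) : Subgroup G) : Set G) := by
  by_contra hn
  exact hc1 (h x g hn c hc hg)

theorem self_mem_cen (x : G) : x ∈ centralizer ({x} : Set G) :=
  mem_centralizer_singleton_iff.mpr rfl

theorem mem_cen_comm {x y : G} (h : y ∈ centralizer ({x} : Set G)) :
    x ∈ centralizer ({y} : Set G) := by
  rw [mem_centralizer_singleton_iff] at h ⊢
  exact h.symm

/-- `C(y) ≤ N(C(x))` for `1 ≠ y ∈ C(x)` -/
theorem IsCTI.cen_le_normalizer (h : IsCTI G) {x y : G} (hy : y ∈ centralizer ({x} : Set G))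
    (hy1 : y ≠ 1) : centralizer ({y} : Set G)
      ≤ normalizer ((centralizer ({x} : Set G) : Subgroup G) : Set G) := by
  intro g hg
  refine h.mem_normalizer hy hy1 ?_
  have : g * y * g⁻¹ = y := by
    rw [mem_centralizer_singleton_iff] at hg
    rw [hg, mul_inv_cancel_right]
  rw [this]; exact hy

/-- a centralizer containing a nontrivial normal subgroup is normal -/
theorem IsCTI.normal_of_le (h : IsCTI G) (A : Subgroup G) [hA : A.Normal] (hA1 : A ≠ ⊥) {x : G}
    (hle : A ≤ centralizer ({x} : Set G)) : (centralizer ({x} : Set G)).Normal := by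
  obtain ⟨a, ha, ha1⟩ : ∃ a ∈ A, a ≠ 1 := by
    obtain ⟨a, ha⟩ := (Subgroup.ne_bot_iff_exists_ne_one (H := A)).mp hA1
    exact ⟨(a : G), a.2, fun h => ha (Subtype.ext h)⟩
  rw [← normalizer_eq_top_iff, eq_top_iff]
  intro g _
  exact h.mem_normalizer (hle ha) ha1 (hle (hA.conj_mem a ha g))

theorem IsCTI.sub (h : IsCTI G) (H : Subgroup G) : IsCTI H := by
  intro y g hg c hc hgc
  by_contra hc1
  apply hg
  have hc' : (c : G) ∈ centralizer ({(y : G)} : Set G) := by
    rw [SetLike.mem_coe, mem_centralizer_singleton_iff] at hc
    rw [mem_centralizer_singleton_iff]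
    exact congrArg Subtype.val hc
  have hgc' : (g : G) * c * (g : G)⁻¹ ∈ centralizer ({(y : G)} : Set G) := by
    rw [SetLike.mem_coe, mem_centralizer_singleton_iff] at hgc
    rw [mem_centralizer_singleton_iff]
    exact congrArg Subtype.val hgc
  have hn := h.mem_normalizer hc' (fun h1 => hc1 (Subtype.ext h1)) hgc'
  rw [mem_normalizer_iff] at hn
  rw [mem_normalizer_iff]
  intro k
  have hk := hn (k : G)
  simp only [mem_centralizer_singleton_iff] at hk ⊢
  constructor
  · intro h1
    exact Subtype.ext (hk.mp (congrArg Subtype.val h1))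
  · intro h1
    exact Subtype.ext (hk.mpr (congrArg Subtype.val h1))

/-- if all centralizers are normal, the group is nilpotent -/
theorem nilpotent_of_normal_cen [Finite G]
    (hn : ∀ x : G, (centralizer ({x} : Set G)).Normal) : Group.IsNilpotent G := by
  have key : ∀ x : G, x ∈ Cfsg.fittingSubgroup G := by
    intro x
    -- the centre of `C(x)` (mapped to `G`) is an abelian normal subgroup containing `x`
    have hchar : ((center (centralizer ({x} : Set G))).map
        (centralizer ({x} : Set G)).subtype).Normal := by
      have := hn x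
      exact ConjAct.normal_of_characteristic_of_normal
    have hx : x ∈ (center (centralizer ({x} : Set G))).map
        (centralizer ({x} : Set G)).subtype := by
      refine ⟨⟨x, self_mem_cen x⟩, ?_, rfl⟩
      rw [SetLike.mem_coe, mem_center_iff]
      rintro ⟨c, hc⟩
      apply Subtype.ext
      rw [mem_centralizer_singleton_iff] at hc
      exact hc
    have hnil : Group.IsNilpotent ((center (centralizer ({x} : Set G))).map
        (centralizer ({x} : Set G)).subtype) := by
      have e := (center (centralizer ({x} : Set G))).equivMapOfInjective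
        (centralizer ({x} : Set G)).subtype (subtype_injective _)
      have : Group.IsNilpotent (center (centralizer ({x} : Set G))) :=
        Subgroup.nilpotent_iff_lowerCentralSeries.mpr
          ⟨1, Subgroup.lowerCentralSeries_one_eq_bot_iff.mpr inferInstance⟩
      exact Group.nilpotent_of_mulEquiv e
    have hmem : (center (centralizer ({x} : Set G))).map (centralizer ({x} : Set G)).subtype
        ∈ {N : Subgroup G | N.Normal ∧ Group.IsNilpotent N} := ⟨hchar, hnil⟩
    exact (le_sSup hmem) hx
  have htop : Cfsg.fittingSubgroup G = ⊤ := eq_top_iff.mpr fun x _ => key x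
  have h1 := Cfsg.Agent.Lib.Helper74.fittingSubgroup_isNilpotent G
  rw [htop] at h1
  exact Group.nilpotent_of_mulEquiv Subgroup.topEquiv

theorem IsCTI.nilpotent_of_center [Finite G] (h : IsCTI G) (hZ : center G ≠ ⊥) :
    Group.IsNilpotent G := by
  apply nilpotent_of_normal_cen
  intro x
  exact h.normal_of_le (center G) hZ (center_le_centralizer _)

theorem IsCTI.isCN [Finite G] (h : IsCTI G) : Cfsg.IsCNGroup G := by
  intro g hg
  apply (h.sub (centralizer ({g} : Set G))).nilpotent_of_center
  intro hbot
  have hmem : (⟨g, self_mem_cen g⟩ : centralizer ({g} : Set G))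
      ∈ center (centralizer ({g} : Set G)) := by
    rw [mem_center_iff]
    rintro ⟨c, hc⟩
    apply Subtype.ext
    rw [mem_centralizer_singleton_iff] at hc
    exact hc
  rw [hbot, mem_bot] at hmem
  exact hg (congrArg Subtype.val hmem)

end Cfsg.Agent.Lib.Helper80.CTI
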