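import Cfsg.Agent.Lib.Helper80.CTIBasic

/-!
# The strongly embedded configuration `H = C(t) < M = N(H) < G`
-/

set_option autoImplicit false

namespace Cfsg.Agent.Lib.Helper80.CTI

open Subgroup

variable {G : Type*} [Group G]

/-- `t` an involution, `H = C(t)` a TI-subgroup of odd index containing the centralizers of its
non-identity elements, `M = N(H)`, `H < M < G`, and `G` has no nontrivial abelian normal
subgroup. -/
structure Cfg (H M : Subgroup G) (t : G) : Prop where
  ht : orderOf t = 2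
  hH : H = centralizer ({t} : Set G)
  hM : M = normalizer (H : Set G)
  cen : ∀ h ∈ H, h ≠ 1 → centralizer ({h} : Set G) ≤ H
  ti : ∀ g : G, g ∉ M → ∀ h ∈ H, g * h * g⁻¹ ∈ H → h = 1
  neH : H ≠ M
  neT : M ≠ ⊤
  odd : Odd H.index
  noAb : ∀ A : Subgroup G, A.Normal → (∀ a ∈ A, ∀ b ∈ A, a * b = b * a) → A = ⊥

variable {H M : Subgroup G} {t : G}

theorem Cfg.le (c : Cfg H M t) : H ≤ M := by
  rw [c.hM]; exact le_normalizer

theorem Cfg.t_mem (c : Cfg H M t) : t ∈ H := by
  rw [c.hH]; exact self_mem_cen t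

theorem Cfg.t_ne (c : Cfg H M t) : t ≠ 1 := by
  intro h
  have := c.ht
  rw [h, orderOf_one] at this
  omega

theorem Cfg.conj_mem (c : Cfg H M t) {m h : G} (hm : m ∈ M) (hh : h ∈ H) : m * h * m⁻¹ ∈ H := by
  rw [c.hM, mem_normalizer_iff] at hm
  exact (hm h).mp hh

theorem Cfg.normal (c : Cfg H M t) : (H.subgroupOf M).Normal := by
  constructor
  intro n hn g
  rw [mem_subgroupOf] at hn ⊢
  exact c.conj_mem g.2 hn

theorem Cfg.odd_relIndex (c : Cfg H M t) : Odd (H.relIndex M) := by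
  have h1 : H.relIndex M ∣ H.index := relIndex_dvd_index_of_le c.le
  exact Odd.of_dvd_nat c.odd h1

theorem Cfg.pow_mem (c : Cfg H M t) {y : G} (hy : y ∈ M) : y ^ H.relIndex M ∈ H := by
  have := c.normal
  have h1 := Subgroup.pow_index_mem (H.subgroupOf M) (⟨y, hy⟩ : M)
  rw [mem_subgroupOf] at h1
  exact h1

theorem Cfg.coprime_index [Finite G] (c : Cfg H M t) : (Nat.card H).Coprime H.index := by
  apply Nat.Coprime.symm
  rw [Nat.coprime_iff_gcd_eq_one] 
  by_contra hne
  obtain ⟨r, hr, hrd⟩ := Nat.exists_prime_and_dvd hne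
  have : Fact r.Prime := ⟨hr⟩
  have hr1 : r ∣ H.index := hrd.trans (Nat.gcd_dvd_left _ _)
  have hr2 : r ∣ Nat.card H := hrd.trans (Nat.gcd_dvd_right _ _)
  obtain ⟨x, hx⟩ := exists_prime_orderOf_dvd_card' r hr2
  have hx1 : (x : G) ≠ 1 := by
    intro h
    have h2 : x = 1 := Subtype.ext h
    rw [h2, orderOf_one] at hx
    exact hr.one_lt.ne hx
  have hpg : IsPGroup r (zpowers (x : G)) := by
    apply IsPGroup.of_card (n := 1)
    rw [Nat.card_zpowers, Subgroup.orderOf_coe, hx, pow_one]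
  obtain ⟨R, hR⟩ := hpg.exists_le_sylow
  have hxR : (x : G) ∈ (R : Subgroup G) := hR (mem_zpowers _)
  have hnt : Nontrivial (R : Subgroup G) :=
    ⟨⟨⟨(x : G), hxR⟩, 1, fun h => hx1 (congrArg Subtype.val h)⟩⟩
  have hcn := R.2.center_nontrivial
  obtain ⟨z, hz⟩ := exists_ne (1 : center (R : Subgroup G))
  have hz1 : ((z : (R : Subgroup G)) : G) ≠ 1 := by
    intro h
    apply hz
    apply Subtype.ext
    apply Subtype.ext
    exact h
  have hzc := mem_center_iff.mp z.2
  have hzH : ((z : (R : Subgroup G)) : G) ∈ H := by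
    apply c.cen x x.2 hx1
    rw [mem_centralizer_singleton_iff]
    exact (congrArg Subtype.val (hzc ⟨(x : G), hxR⟩)).symm
  have hRH : (R : Subgroup G) ≤ H := by
    intro y hy
    apply c.cen _ hzH hz1
    rw [mem_centralizer_singleton_iff]
    exact congrArg Subtype.val (hzc ⟨y, hy⟩)
  exact R.not_dvd_index (hr1.trans (index_dvd_of_le hRH))

theorem Cfg.coprime [Finite G] (c : Cfg H M t) : (Nat.card H).Coprime (H.relIndex M) :=
  Nat.Coprime.coprime_dvd_right (relIndex_dvd_index_of_le c.le) c.coprime_index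

/-- `H ∩ g⁻¹ M g = 1` for `g ∉ M` -/
theorem Cfg.inter [Finite G] (c : Cfg H M t) {g x : G} (hg : g ∉ M) (hx : x ∈ H)
    (hgx : g * x * g⁻¹ ∈ M) : x = 1 := by
  have h1 := c.pow_mem hgx
  rw [conj_pow] at h1
  have h2 : x ^ H.relIndex M = 1 := c.ti g hg _ (H.pow_mem hx _) h1
  have h3 : orderOf x ∣ H.relIndex M := orderOf_dvd_of_pow_eq_one h2
  have h4 : orderOf x ∣ Nat.card H := by
    have := orderOf_dvd_natCard (⟨x, hx⟩ : H)
    rwa [← Subgroup.orderOf_coe] at this
  have h5 : orderOf x = 1 := Nat.eq_one_of_dvd_coprimes c.coprime h4 h3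
  exact orderOf_eq_one_iff.mp h5

/-- elements of `2`-power order of `M` lie in `H` -/
theorem Cfg.invol_mem (c : Cfg H M t) {s : G} (hs : s ∈ M) (h2 : orderOf s = 2) : s ∈ H := by
  have h1 := c.pow_mem hs
  obtain ⟨k, hk⟩ := c.odd_relIndex
  rw [hk, pow_succ, pow_mul, ← h2, pow_orderOf_eq_one, one_pow, one_mul] at h1
  exact h1

theorem Cfg.conj_t_not_mem [Finite G] (c : Cfg H M t) {g : G} (hg : g ∉ M) :
    g * t * g⁻¹ ∉ M := fun h => c.t_ne (c.inter hg c.t_mem h)

theorem Cfg.one_lt_relIndex [Finite G] (c : Cfg H M t) : 1 < H.relIndex M := by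
  have h0 : H.relIndex M ≠ 0 := (H.subgroupOf M).index_ne_zero_of_finite
  have h1 : H.relIndex M ≠ 1 := by
    intro h
    rw [relIndex_eq_one] at h
    exact c.neH (le_antisymm c.le h)
  omega

end Cfsg.Agent.Lib.Helper80.CTI
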