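import Mathlib
import Cfsg.Agent.Lib.Helper2.BG96A
import Cfsg.Agent.Lib.Helper96.SylowAct

/-!
# Local counting lemmas around a Sylow subgroup
-/

set_option autoImplicit false

namespace Cfsg.Agent.Lib.Helper80

open Subgroup

/-- the normalizer of `P` inside an overgroup `H`. -/
theorem normalizer_subgroupOf_eq {G : Type*} [Group G] {P H : Subgroup G} (hPH : P ≤ H) :
    normalizer ((P.subgroupOf H : Subgroup H) : Set H) = (normalizer (P : Set G)).subgroupOf H := by
  ext x
  rw [mem_subgroupOf, mem_normalizer_iff, mem_normalizer_iff]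
  constructor
  · intro h g
    constructor
    · intro hg
      have := (h ⟨g, hPH hg⟩).1 (by rw [mem_subgroupOf]; exact hg)
      rw [mem_subgroupOf] at this
      exact this
    · intro hg
      have hgH : g ∈ H := by
        have h1 : (x : G)⁻¹ * ((x : G) * g * (x : G)⁻¹) * (x : G) ∈ H :=
          H.mul_mem (H.mul_mem (H.inv_mem x.2) (hPH hg)) x.2
        have h2 : (x : G)⁻¹ * ((x : G) * g * (x : G)⁻¹) * (x : G) = g := by group
        rwa [h2] at h1
      have := (h ⟨g, hgH⟩).2 (by rw [mem_subgroupOf]; exact hg)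
      rw [mem_subgroupOf] at this
      exact this
  · intro h g
    rw [mem_subgroupOf, mem_subgroupOf]
    exact h g

/-- Sylow counting inside an overgroup `H` of the Sylow subgroup `P`. -/
theorem card_overgroup_sylow {G : Type*} [Group G] [Finite G] {p : ℕ} [Fact p.Prime]
    (P : Sylow p G) (H : Subgroup G) (hPH : (P : Subgroup G) ≤ H) :
    ∃ n : ℕ, n % p = 1 ∧
      Nat.card H = n * Nat.card (normalizer ((P : Subgroup G) : Set G) ⊓ H : Subgroup G) := by
  have hp : p.Prime := Fact.out
  refine ⟨Nat.card (Sylow p H), ?_, ?_⟩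
  · have := card_sylow_modEq_one p H
    unfold Nat.ModEq at this
    rw [this, Nat.mod_eq_of_lt hp.one_lt]
  · have h1 := Helper96.card_sylow_mul_card_normalizer (P.subtype hPH)
    rw [← h1]
    congr 1
    have h2 : ((P.subtype hPH : Sylow p H) : Subgroup H) = (P : Subgroup G).subgroupOf H := rfl
    rw [h2, normalizer_subgroupOf_eq hPH, ← inf_subgroupOf_right]
    exact Nat.card_congr (subgroupOfEquivOfLe inf_le_right).toEquiv

/-- An involution of `C` centralized by a given `2`-subgroup `S` of `N`, `C ⊴ N`. -/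
theorem exists_involution_centralized {G : Type*} [Group G] [Finite G] (N C S : Subgroup G)
    (hCN : C ≤ N) (hnorm : N ≤ normalizer (C : Set G)) (hS : IsPGroup 2 S) (hSN : S ≤ N)
    (hcard : Nat.card N < Nat.card S * Nat.card C) :
    ∃ t ∈ C, orderOf t = 2 ∧ t ∈ centralizer (S : Set G) := by
  have : Fact (Nat.Prime 2) := ⟨Nat.prime_two⟩
  have hK : S ⊓ C ≠ ⊥ := by
    intro h
    have hdis : Disjoint S C := disjoint_iff.2 h
    have hinj := mul_injective_of_disjoint hdis
    let f : S × C → N := fun g => ⟨(g.1 : G) * (g.2 : G), N.mul_mem (hSN g.1.2) (hCN g.2.2)⟩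
    have hf : Function.Injective f := by
      intro a b hab
      exact hinj (congrArg Subtype.val hab)
    have := Nat.card_le_card_of_injective f hf
    rw [Nat.card_prod] at this
    omega
  have hnK : S ≤ normalizer ((S ⊓ C : Subgroup G) : Set G) := by
    intro s hs
    rw [mem_normalizer_iff]
    intro h
    have h1 := mem_normalizer_iff.1 (hnorm (hSN hs)) h
    have h2 : h ∈ S ↔ s * h * s⁻¹ ∈ S := by
      constructor
      · intro hh; exact S.mul_mem (S.mul_mem hs hh) (S.inv_mem hs)
      · intro hh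
        have h3 : s⁻¹ * (s * h * s⁻¹) * s ∈ S := S.mul_mem (S.mul_mem (S.inv_mem hs) hh) hs
        have h4 : s⁻¹ * (s * h * s⁻¹) * s = h := by group
        rwa [h4] at h3
    rw [mem_inf, mem_inf, h1, h2]
  obtain ⟨y, hyK, hy1, hyc⟩ := Helper2.BG96.exists_central_of_pgroup (s := 2)
    (hS.to_le inf_le_left) hK hS hnK
  obtain ⟨k, hk⟩ := (IsPGroup.iff_orderOf.1 hS) ⟨y, (mem_inf.1 hyK).1⟩
  rw [Subgroup.orderOf_mk] at hk
  have hk0 : k ≠ 0 := by
    rintro rfl
    rw [pow_zero, orderOf_eq_one_iff] at hk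
    exact hy1 hk
  have h2 : 2 ∣ orderOf y := by rw [hk]; exact dvd_pow_self 2 hk0
  refine ⟨y ^ (orderOf y / 2), C.pow_mem (mem_inf.1 hyK).2 _,
    orderOf_pow_orderOf_div (orderOf_pos y).ne' h2, (centralizer (S : Set G)).pow_mem hyc _⟩

end Cfsg.Agent.Lib.Helper80
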